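import Mathlib
import Cfsg.Agent.MaxCent.Basic

/-!
A normal subgroup all whose non-central elements have maximal centralisers in the whole group.
-/

set_option autoImplicit false

namespace CfsgLib.MaxCentNormal

open scoped commutatorElement Pointwise
open CfsgLib.MaxCent (cent mem_cent self_mem_cent center_le_cent IsPElem mem_of_two_pows mem_of_parts exists_part Ab)

/-- A product of commuting elements of coprime exponents has the intersection centraliser. -/
theorem commute_parts {K : Type*} [Group K] {m n : ℕ} (hmn : m.Coprime n) {x y g : K} (hxy : Commute x y)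
    (hx : x ^ m = 1) (hy : y ^ n = 1) (hg : Commute g (x * y)) : Commute g x ∧ Commute g y := by
  constructor
  · have h1 := hg.pow_right n
    rw [hxy.mul_pow, hy, mul_one] at h1
    exact (mem_cent.1 (mem_of_two_pows (H := cent g) hmn (by rw [hx]; exact one_mem _) (mem_cent.2 h1.eq.symm))).symm
  · have h1 := hg.pow_right m
    rw [hxy.mul_pow, hx, one_mul] at h1
    exact (mem_cent.1 (mem_of_two_pows (H := cent g) hmn (mem_cent.2 h1.eq.symm) (by rw [hy]; exact one_mem _))).symm

variable {G : Type*} [Group G] {N : Subgroup G}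

/-- The hypothesis. -/
def Hyp (N : Subgroup G) : Prop :=
  ∀ x : N, x ∉ Subgroup.center N → IsCoatom (cent (x : G))

/-- A subgroup of `N` which is normal in the whole group. -/
def Inv (D : Subgroup N) : Prop := (D.map N.subtype).Normal

theorem mem_cent_coe {x d : N} : (d : G) ∈ cent (x : G) ↔ d ∈ cent x := by
  rw [mem_cent, mem_cent, ← Subgroup.coe_mul, ← Subgroup.coe_mul, Subtype.coe_inj]

variable [hN : N.Normal]
include hN

theorem inv_iff {D : Subgroup N} :
    Inv D ↔ ∀ g : G, ∀ d ∈ D, MulAut.conjNormal g d ∈ D := by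
  constructor
  · intro h g d hd
    obtain ⟨e, he, hee⟩ := h.conj_mem _ ⟨d, hd, rfl⟩ g
    have : e = MulAut.conjNormal g d := Subtype.ext (hee.trans (MulAut.conjNormal_apply g d).symm)
    exact this ▸ he
  · intro h
    refine ⟨?_⟩
    rintro _ ⟨d, hd, rfl⟩ g
    exact ⟨_, h g d hd, MulAut.conjNormal_apply g d⟩

omit hN in
theorem Inv.normal {D : Subgroup N} (h : Inv D) : D.Normal := by
  refine ⟨fun d hd n => ?_⟩
  obtain ⟨e, he, hee⟩ := h.conj_mem _ ⟨d, hd, rfl⟩ (n : G)
  have : e = n * d * n⁻¹ := Subtype.ext hee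
  exact this ▸ he

theorem inv_of_characteristic (D : Subgroup N) [D.Characteristic] : Inv D := inv_iff.2 fun g d hd => by
  have h := Subgroup.characteristic_iff_map_eq.1 (inferInstance : D.Characteristic) (MulAut.conjNormal g)
  exact h.le ⟨d, hd, rfl⟩

theorem inv_center : Inv (Subgroup.center N) := inv_of_characteristic _

omit hN in
/-- The elements of the ambient group normalising a subgroup of `N`. -/
theorem coe_mem_normalizer {D : Subgroup N} {n : N} (hn : n ∈ Subgroup.normalizer (D : Set N)) :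
    (n : G) ∈ Subgroup.normalizer ((D.map N.subtype : Subgroup G) : Set G) :=
  Subgroup.le_normalizer_map N.subtype ⟨n, hn, rfl⟩

theorem mem_normalizer_map_of_conj [Finite G] {D : Subgroup N} {g : G}
    (h : ∀ d ∈ D, MulAut.conjNormal g d ∈ D) :
    g ∈ Subgroup.normalizer ((D.map N.subtype : Subgroup G) : Set G) := by
  rw [Subgroup.mem_normalizer_iff_map_conj_eq]
  refine Subgroup.eq_of_le_of_card_ge ?_ (Subgroup.card_map_of_injective (MulAut.conj g).injective).ge
  rintro _ ⟨_, ⟨d, hd, rfl⟩, rfl⟩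
  exact ⟨_, h d hd, by simp⟩

theorem cent_conjNormal (g : G) (x d : N) :
    MulAut.conjNormal g d ∈ cent (MulAut.conjNormal g x) ↔ d ∈ cent x := by
  rw [mem_cent, mem_cent, ← map_mul, ← map_mul]
  exact (MulAut.conjNormal g).injective.eq_iff

theorem cent_le_normalizer [Finite G] (x : N) :
    cent (x : G) ≤ Subgroup.normalizer (((cent x).map N.subtype : Subgroup G) : Set G) := by
  intro g hg
  refine mem_normalizer_map_of_conj fun d hd => ?_
  have e : MulAut.conjNormal g x = x := Subtype.ext (by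
    rw [MulAut.conjNormal_apply, mem_cent.1 hg, mul_inv_cancel_right])
  have := (cent_conjNormal g x d).2 hd
  rwa [e] at this

namespace Hyp

variable (h : Hyp N)
include h

theorem cent_ne_top {x : N} (hx : x ∉ Subgroup.center N) : cent x ≠ ⊤ := fun e =>
  hx (Subgroup.mem_center_iff.2 fun n => mem_cent.1 (e.ge (Subgroup.mem_top n)))

omit hN in
theorem eq_of_le {x y : N} (hx : x ∉ Subgroup.center N) (hy : y ∉ Subgroup.center N)
    (hle : cent (x : G) ≤ cent (y : G)) : cent (x : G) = cent (y : G) := by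
  rcases eq_or_lt_of_le hle with e | e
  · exact e
  · exact absurd ((h x hx).2 _ e) (h y hy).1

/-- The conjugates of an element of `N` are conjugates inside `N`. -/
theorem split {x : N} (hx : x ∉ Subgroup.center N) (g : G) :
    ∃ n : N, ∃ m ∈ cent (x : G), g = (n : G) * m := by
  have htop : cent (x : G) ⊔ N = ⊤ := (h x hx).2 _ (lt_of_le_of_ne le_sup_left fun e => hx
    (Subgroup.mem_center_iff.2 fun n => mem_cent.1 (mem_cent_coe.1 (e.ge (Subgroup.mem_sup_right n.2)))))
  obtain ⟨a, ha, b, hb, rfl⟩ := Subgroup.mem_sup_of_normal_left.1 ((sup_comm N _).trans htop ▸ Subgroup.mem_top g)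
  exact ⟨⟨a, ha⟩, b, hb, rfl⟩

theorem inv_of_normal [Finite G] {x : N} (hx : x ∉ Subgroup.center N) {D : Subgroup N}
    (hD : cent (x : G) ≤ Subgroup.normalizer ((D.map N.subtype : Subgroup G) : Set G)) (hn : D.Normal) : Inv D := by
  refine Subgroup.normalizer_eq_top_iff.1 (eq_top_iff.2 fun g _ => ?_)
  obtain ⟨n, m, hm, rfl⟩ := h.split hx g
  refine mul_mem (coe_mem_normalizer ?_) (hD hm)
  rw [Subgroup.normalizer_eq_top_iff.2 hn]
  exact Subgroup.mem_top n

theorem normalizer_le_or_inv [Finite G] {x : N} (hx : x ∉ Subgroup.center N) {D : Subgroup N}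
    (hD : cent (x : G) ≤ Subgroup.normalizer ((D.map N.subtype : Subgroup G) : Set G)) :
    Subgroup.normalizer (D : Set N) ≤ cent x ∨ Inv D := by
  rcases eq_or_lt_of_le hD with e | e
  · exact Or.inl fun n hn => mem_cent_coe.1 (e.ge (coe_mem_normalizer hn))
  · exact Or.inr (Subgroup.normalizer_eq_top_iff.1 ((h x hx).2 _ e))

theorem sup_eq_top {x : N} (hx : x ∉ Subgroup.center N) {W : Subgroup N} (hW : Inv W) (hWx : ¬ W ≤ cent x) :
    cent x ⊔ W = ⊤ := by
  haveI : (W.map N.subtype).Normal := hW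
  have htop : cent (x : G) ⊔ W.map N.subtype = ⊤ := (h x hx).2 _ (lt_of_le_of_ne le_sup_left fun e => hWx
    fun w hw => mem_cent_coe.1 (e.ge (Subgroup.mem_sup_right ⟨w, hw, rfl⟩)))
  refine eq_top_iff.2 fun n _ => ?_
  obtain ⟨m, hm, _, ⟨w, hw, rfl⟩, e⟩ := Subgroup.mem_sup_of_normal_right.1 (htop.ge (Subgroup.mem_top (n : G)))
  have hm' : ((n * w⁻¹ : N) : G) = m := by
    rw [Subgroup.coe_mul, Subgroup.coe_inv, ← e]; simp
  have : n = (n * w⁻¹) * w := by group
  rw [this]
  exact Subgroup.mul_mem_sup (mem_cent_coe.1 (hm'.symm ▸ hm)) hw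

theorem normalizer_cent [Finite G] {x : N} (hx : x ∉ Subgroup.center N) (hn : ¬ (cent x).Normal) :
    Subgroup.normalizer (cent x : Set N) = cent x :=
  le_antisymm ((h.normalizer_le_or_inv hx (cent_le_normalizer x)).resolve_right fun hI => hn hI.normal)
    Subgroup.le_normalizer

theorem inv_cent [Finite G] {x : N} (hx : x ∉ Subgroup.center N) (hn : (cent x).Normal) : Inv (cent x) :=
  h.inv_of_normal hx (cent_le_normalizer x) hn

omit hN in
theorem eq_of_coprime {p q : ℕ} (hp : p.Prime) (hq : q.Prime) (hpq : p ≠ q) {x y : N} (hx : IsPElem p x)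
    (hy : IsPElem q y) (hxy : Commute x y) (hx' : x ∉ Subgroup.center N) (hy' : y ∉ Subgroup.center N) :
    cent x = cent y := by
  obtain ⟨a, ha⟩ := hx
  obtain ⟨b, hb⟩ := hy
  have hcop : (p ^ a).Coprime (q ^ b) := ((Nat.coprime_primes hp hq).2 hpq).pow a b
  have hxy' : x * y ∉ Subgroup.center N := fun hc => hx' (Subgroup.mem_center_iff.2 fun g =>
    (commute_parts hcop hxy ha hb (Subgroup.mem_center_iff.1 hc g)).1)
  have hle : ∀ g ∈ cent ((x * y : N) : G), g ∈ cent (x : G) ∧ g ∈ cent (y : G) := by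
    intro g hg
    have := commute_parts (K := G) (x := (x : G)) (y := (y : G)) (g := g) hcop (congrArg Subtype.val hxy.eq)
      (by rw [← SubgroupClass.coe_pow, ha, OneMemClass.coe_one])
      (by rw [← SubgroupClass.coe_pow, hb, OneMemClass.coe_one]) (mem_cent.1 hg)
    exact ⟨mem_cent.2 this.1.eq, mem_cent.2 this.2.eq⟩
  have e : cent (x : G) = cent (y : G) :=
    (h.eq_of_le hxy' hx' fun g hg => (hle g hg).1).symm.trans (h.eq_of_le hxy' hy' fun g hg => (hle g hg).2)
  ext d
  rw [← mem_cent_coe, ← mem_cent_coe, e]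

omit hN in
/-- In a non-abelian centraliser of a `p`-element, the elements of other prime power order are central. -/
theorem mem_center_of_other [Finite G] {p q : ℕ} (hp : p.Prime) (hq : q.Prime) (hpq : q ≠ p) {x y : N}
    (hx : IsPElem p x) (hx' : x ∉ Subgroup.center N) (hab : ¬ Ab (cent x)) (hy : IsPElem q y) (hyx : y ∈ cent x) :
    y ∈ Subgroup.center N := by
  by_contra hy'
  have hxy : cent y = cent x := h.eq_of_coprime hq hp hpq hy hx (mem_cent.1 hyx) hy' hx'
  have hE : ∀ (r : ℕ), r.Prime → ∀ g : N, IsPElem r g → g ∈ cent x → ∀ b ∈ cent x, g * b = b * g := by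
    intro r hr g hg hgx b hb
    by_cases hgc : g ∈ Subgroup.center N
    · exact (Subgroup.mem_center_iff.1 hgc b).symm
    have hgx' : cent g = cent x := by
      by_cases hrp : r = p
      · refine (h.eq_of_coprime hr hq (by rw [hrp]; exact hpq.symm) hg hy ?_ hgc hy').trans hxy
        exact mem_cent.1 (hxy.ge hgx)
      · exact h.eq_of_coprime hr hp hrp hg hx (mem_cent.1 hgx) hgc hx'
    exact (mem_cent.1 (hgx'.ge hb)).symm
  refine hab fun a ha b hb => ?_
  exact mem_cent.1 (mem_of_parts (H := cent b) fun r hr k hk =>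
    mem_cent.2 (hE r hr _ hk ((cent x).pow_mem ha k) b hb))

omit hN in
/-- A non-abelian centraliser of a `p`-element is a `p`-group modulo the centre. -/
theorem pow_mem_center [Finite G] {p : ℕ} (hp : p.Prime) {x : N} (hx : IsPElem p x)
    (hx' : x ∉ Subgroup.center N) (hab : ¬ Ab (cent x)) {g : N} (hg : g ∈ cent x) :
    ∃ k, g ^ p ^ k ∈ Subgroup.center N := by
  obtain ⟨v, n, hn, hgn⟩ := Nat.exists_eq_pow_mul_and_not_dvd (orderOf_pos g).ne' p hp.ne_one
  refine ⟨v, mem_of_parts fun q hq k hk => ?_⟩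
  by_cases hqp : q = p
  · subst hqp
    obtain ⟨a, ha⟩ := hk
    have h1 : (g ^ q ^ v) ^ n = 1 := by rw [← pow_mul, ← hgn, pow_orderOf_eq_one]
    have h2 : ((g ^ q ^ v) ^ k) ^ n = 1 := by rw [← pow_mul, mul_comm, pow_mul, h1, one_pow]
    have h3 : (g ^ q ^ v) ^ k = 1 := orderOf_eq_one_iff.1 (Nat.eq_one_of_dvd_coprimes
      ((hp.coprime_iff_not_dvd.2 hn).pow_left a) (orderOf_dvd_of_pow_eq_one ha) (orderOf_dvd_of_pow_eq_one h2))
    rw [h3]
    exact one_mem _
  · exact h.mem_center_of_other hp hq hqp hx hx' hab hk ((cent x).pow_mem ((cent x).pow_mem hg _) k)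

end Hyp

omit hN in
/-- If some element is not a `p`-element modulo the centre, another prime occurs. -/
theorem exists_other [Finite G] {p : ℕ} (hp : p.Prime)
    (hP : ¬ ∀ g : N, ∃ k, g ^ p ^ k ∈ Subgroup.center N) :
    ∃ q : ℕ, q.Prime ∧ q ≠ p ∧ ∃ t : N, IsPElem q t ∧ t ∉ Subgroup.center N := by
  by_contra hcon
  push Not at hcon
  refine hP fun g => ?_
  obtain ⟨v, n, hn, hgn⟩ := Nat.exists_eq_pow_mul_and_not_dvd (orderOf_pos g).ne' p hp.ne_one
  refine ⟨v, mem_of_parts fun r hr k hk => ?_⟩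
  by_cases hrp : r = p
  · subst hrp
    obtain ⟨a, ha⟩ := hk
    have h1 : (g ^ r ^ v) ^ n = 1 := by rw [← pow_mul, ← hgn, pow_orderOf_eq_one]
    have h2 : ((g ^ r ^ v) ^ k) ^ n = 1 := by rw [← pow_mul, mul_comm, pow_mul, h1, one_pow]
    have h3 : (g ^ r ^ v) ^ k = 1 := orderOf_eq_one_iff.1 (Nat.eq_one_of_dvd_coprimes
      ((hp.coprime_iff_not_dvd.2 hn).pow_left a) (orderOf_dvd_of_pow_eq_one ha) (orderOf_dvd_of_pow_eq_one h2))
    rw [h3]
    exact one_mem _
  · exact hcon r hr hrp _ hk

end CfsgLib.MaxCentNormal
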